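import Cfsg.Agent.H202.TP.Defs
import Cfsg.Agent.H160.QEnum

/-!
# Block TP (S3536): the budget of orbits (helper189)

* `bud` : `Inv q R`, `|R| ≤ 2 ^ (k + 1)`, `k ≥ 2`, and for each `1 ≤ i < k` an odd prime divisor of `q ^ 2 ^ i + 1`
  divides the order of an element of `R`; then `x ^ (q ^ 2 ^ k - 1) = 1` for `x ∈ R`.
-/

set_option autoImplicit false
set_option linter.unusedSectionVars false

namespace Cfsg.Agent.H189.TP

open Cfsg.Agent.H160.QRoots

/-- `r ∣ q ^ m + 1`, `r ∣ q ^ d - 1` or `r ∣ q ^ d + 1`, `m = 2 ^ i`: then `m ∣ d` -/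
theorem dvd_of {q r i d : ℕ} (hr : r.Prime) (hr2 : r ≠ 2) (h1 : r ∣ q ^ 2 ^ i + 1) (h2 : r ∣ q ^ (2 * d) - 1) :
    2 ^ i ∣ d := by
  have : Fact r.Prime := ⟨hr⟩
  have hne : (2 : ZMod r) ≠ 0 := by
    intro h
    have h3 : ((2 : ℕ) : ZMod r) = 0 := by exact_mod_cast h
    rw [ZMod.natCast_eq_zero_iff] at h3
    exact hr2 ((Nat.prime_dvd_prime_iff_eq hr Nat.prime_two).1 h3)
  have e1 : (q : ZMod r) ^ 2 ^ i = -1 := by
    have h3 : ((q ^ 2 ^ i + 1 : ℕ) : ZMod r) = 0 := (ZMod.natCast_eq_zero_iff _ _).2 h1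
    push_cast at h3
    exact eq_neg_of_add_eq_zero_left h3
  have hne1 : (q : ZMod r) ^ 2 ^ i ≠ 1 := by
    rw [e1]
    intro h
    apply hne
    have : (2 : ZMod r) = 1 - (-1) := by norm_num
    rw [this, h, sub_self]
  have ho : orderOf (q : ZMod r) = 2 ^ (i + 1) := orderOf_eq_prime_pow hne1 (by
    rw [pow_succ, pow_mul, e1]
    norm_num)
  have hq0 : 0 < q := by
    rcases Nat.eq_zero_or_pos q with h | h
    · exfalso
      rw [h, zero_pow (by positivity)] at h1
      exact hr.one_lt.ne' (Nat.dvd_one.1 h1)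
    · exact h
  have e2 : (q : ZMod r) ^ (2 * d) = 1 := by
    have h3 : ((q ^ (2 * d) - 1 : ℕ) : ZMod r) = 0 := (ZMod.natCast_eq_zero_iff _ _).2 h2
    rw [Nat.cast_sub (Nat.one_le_pow _ _ hq0)] at h3
    push_cast at h3
    exact sub_eq_zero.1 h3
  have h3 := orderOf_dvd_of_pow_eq_one e2
  rw [ho, pow_succ, mul_comm 2 d] at h3
  exact Nat.dvd_of_mul_dvd_mul_right (by norm_num) h3

theorem sub_dvd_two_mul (q d : ℕ) : q ^ d - 1 ∣ q ^ (2 * d) - 1 := by
  rw [mul_comm, pow_mul]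
  simpa using Nat.sub_dvd_pow_sub_pow (q ^ d) 1 2

theorem add_dvd_two_mul (q d : ℕ) : q ^ d + 1 ∣ q ^ (2 * d) - 1 := by
  rw [mul_comm, pow_mul]
  refine ⟨q ^ d - 1, ?_⟩
  have := Nat.sq_sub_sq (q ^ d) 1
  simpa using this

theorem sub_dvd_sub {q a b : ℕ} (h : a ∣ b) : q ^ a - 1 ∣ q ^ b - 1 := by
  obtain ⟨c, rfl⟩ := h
  rw [pow_mul]
  simpa using Nat.sub_dvd_pow_sub_pow (q ^ a) 1 c

section

variable {K : Type*} [Field K] [DecidableEq K] {q : ℕ} (hq : Function.Injective (fun x : K => x ^ q)) (hq0 : 0 < q)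

theorem IsMin.pow_two {μ : K} {d : ℕ} (hq0 : 0 < q) (h : IsMin q μ d) : μ ^ (q ^ (2 * d) - 1) = 1 := by
  rcases h.pow hq0 with h1 | h1
  · exact pow_dvd h1 (sub_dvd_two_mul q d)
  · exact pow_dvd h1 (add_dvd_two_mul q d)

include hq hq0

/-- an element whose order is divisible by an odd prime divisor of `q ^ 2 ^ i + 1` has an orbit of length `2 d`, `2 ^ i ∣ d` -/
theorem dvd_of_isMin {μ : K} {d r i : ℕ} (h : IsMin q μ d) (hr : r.Prime) (hr2 : r ≠ 2) (h1 : r ∣ q ^ 2 ^ i + 1)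
    (h2 : r ∣ orderOf μ) : 2 ^ i ∣ d :=
  dvd_of hr hr2 h1 (h2.trans (orderOf_dvd_of_pow_eq_one (IsMin.pow_two hq0 h)))

/-- **Budget.** -/
theorem bud : ∀ (k : ℕ) (R : Multiset K), 1 ≤ k → Inv q R → R.card ≤ 2 ^ (k + 1) →
    (∀ i, 1 ≤ i → i < k → ∃ s : ℕ, s.Prime ∧ s ≠ 2 ∧ s ∣ q ^ 2 ^ i + 1 ∧ ∃ x ∈ R, s ∣ orderOf x) →
    ∀ x ∈ R, x ^ (q ^ 2 ^ (max k 2) - 1) = 1 := by
  intro k
  induction k with
  | zero => intro R h; omega
  | succ k ih =>
    intro R _ hR hc hs x hx
    rcases Nat.eq_zero_or_pos k with rfl | hk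
    · obtain ⟨d, hd⟩ := exists_isMin hq hR hx
      have h1 := d_le hq hR hd hx
      have h2 := hd.pos
      have h3 : d = 1 ∨ d = 2 := by
        have : 2 ^ (0 + 1 + 1) = 4 := by norm_num
        omega
      refine pow_dvd (IsMin.pow_two hq0 hd) (sub_dvd_sub ?_)
      rcases h3 with rfl | rfl <;> decide
    · have hmax : max (k + 1) 2 = k + 1 := by omega
      rw [hmax]
      obtain ⟨s, hsp, hs2, hsd, μ, hμ, hsμ⟩ := hs k hk (Nat.lt_succ_self k)
      obtain ⟨d, hd⟩ := exists_isMin hq hR hμ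
      have h1 : 2 ^ k ∣ d := dvd_of_isMin hq hq0 hd hsp hs2 hsd hsμ
      obtain ⟨c, rfl⟩ := h1
      have hc0 : 0 < c := by
        rcases Nat.eq_zero_or_pos c with h | h
        · exfalso
          have := hd.pos
          rw [h, mul_zero] at this
          omega
        · exact h
      obtain ⟨R', h3, h4, h5, h6, h7⟩ := peel hq hR hd
      have h8 : 1 ≤ R.count μ := Multiset.one_le_count_iff_mem.2 hμ
      have e2 : 2 ^ (k + 1 + 1) = 4 * 2 ^ k := by rw [pow_succ, pow_succ]; ring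
      have h9 : 2 * (2 ^ k * c) + R'.card ≤ 4 * 2 ^ k := by
        rw [← e2]
        refine le_trans ?_ hc
        rw [h7]
        have := Nat.mul_le_mul_right (2 * (2 ^ k * c)) h8
        omega
      have h10 : c = 1 ∨ (c = 2 ∧ R'.card = 0) := by
        have hp : 0 < 2 ^ k := by positivity
        rcases (by omega : c = 1 ∨ c = 2 ∨ 3 ≤ c) with h | h | h
        · exact Or.inl h
        · right
          refine ⟨h, ?_⟩
          rw [h] at h9
          omega
        · exfalso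
          have := Nat.mul_le_mul_left (2 ^ k) h
          omega
      rcases h10 with rfl | ⟨rfl, h0⟩
      · rw [mul_one] at hd h3 h5 h9
        -- the type of `μ`
        have hμ1 : μ ^ (q ^ 2 ^ (k + 1) - 1) = 1 := by
          have := IsMin.pow_two hq0 hd
          rwa [show 2 * 2 ^ k = 2 ^ (k + 1) by rw [pow_succ]; ring] at this
        have hμ2 : μ ^ (q ^ 2 ^ k + 1) = 1 := by
          rcases hd.pow hq0 with h | h
          · exfalso
            have h11 : s ∣ q ^ 2 ^ k - 1 := hsμ.trans (orderOf_dvd_of_pow_eq_one h)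
            have h12 : 1 ≤ q ^ 2 ^ k := Nat.one_le_pow _ _ hq0
            have h13 : s ∣ 2 := by
              have := Nat.dvd_sub hsd h11
              rwa [show q ^ 2 ^ k + 1 - (q ^ 2 ^ k - 1) = 2 by omega] at this
            exact hs2 ((Nat.prime_dvd_prime_iff_eq hsp Nat.prime_two).1 h13)
          · exact h
        by_cases hxo : x ∈ orb q μ (2 ^ k)
        · exact ex_orb hxo hμ1
        · have hxR' := (h5 x).2 ⟨hx, hxo⟩
          have h11 := ih R' hk h4 (by rw [pow_succ]; omega) (by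
            intro i hi hik
            obtain ⟨t, htp, ht2, htd, ν, hν, htν⟩ := hs i hi (by omega)
            refine ⟨t, htp, ht2, htd, ν, ?_, htν⟩
            refine (h5 ν).2 ⟨hν, ?_⟩
            intro hνo
            have h12 : t ∣ q ^ 2 ^ k + 1 := htν.trans (orderOf_dvd_of_pow_eq_one (ex_orb hνo hμ2))
            have h13 : t ∣ q ^ (2 * 2 ^ i) - 1 := htd.trans (add_dvd_two_mul q _)
            have h14 := dvd_of htp ht2 h12 h13
            have h15 : 2 ^ i < 2 ^ k := Nat.pow_lt_pow_right (by norm_num) hik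
            have h16 := Nat.le_of_dvd (by positivity) h14
            omega) x hxR'
          refine pow_dvd h11 (sub_dvd_sub (pow_dvd_pow 2 ?_))
          omega
      · -- one orbit
        have hR0 : R' = 0 := Multiset.card_eq_zero.1 h0
        have hxo : x ∈ orb q μ (2 ^ k * 2) := by
          by_contra hno
          have := (h5 x).2 ⟨hx, hno⟩
          rw [hR0] at this
          exact Multiset.notMem_zero x this
        rw [← pow_succ] at hxo hd
        rcases hd.pow hq0 with h | h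
        · exact ex_orb hxo h
        · exfalso
          have h11 : s ∣ q ^ 2 ^ (k + 1) + 1 := hsμ.trans (orderOf_dvd_of_pow_eq_one h)
          have h12 := dvd_of hsp hs2 h11 (hsd.trans (add_dvd_two_mul q _))
          have h13 := Nat.le_of_dvd (by positivity) h12
          have h14 : 2 ^ k < 2 ^ (k + 1) := Nat.pow_lt_pow_right (by norm_num) (Nat.lt_succ_self k)
          omega

end

end Cfsg.Agent.H189.TP
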