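import Cfsg.Agent.H189.TP.Bud

/-!
# Block TP (S3536): `iso`, `two`, `tor`, `pr` from the multiset of eigenvalues (helper189)

`Frm p q n N R` : `N` is the order of an element (of `PSp_{2n}(q)` or `Ω_{2n+1}(q)`), `R` the multiset of the eigenvalues `≠ ±1`.
-/

set_option autoImplicit false
set_option linter.unusedSectionVars false

namespace Cfsg.Agent.H189.TP

open Cfsg.Agent.H160.QRoots Cfsg.Agent.H202.TP

/-- `N` is the order of an element, `R` the multiset of its eigenvalues `≠ ±1` -/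
structure Frm {K : Type*} [Field K] [DecidableEq K] (p q n N : ℕ) (R : Multiset K) : Prop where
  frob : Function.Injective (fun x : K => x ^ q)
  inv : Inv q R
  card : R.card ≤ 2 * n
  kill : ∃ c, ∀ E, Even E → (∀ x ∈ R, x ^ E = 1) → N ∣ E * p ^ c
  semi : ∀ μ ∈ R, IsMin q μ n → N ∣ (q ^ n - 1) / 2 ∨ N ∣ (q ^ n + 1) / 2

section

variable {K : Type*} [Field K] [DecidableEq K] {p q n N : ℕ} {R : Multiset K}

theorem Frm.orderOf_pos (h : Frm p q n N R) (hq : 2 ≤ q) {x : K} (hx : x ∈ R) : 0 < orderOf x := by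
  obtain ⟨d, hd⟩ := exists_isMin h.frob h.inv hx
  have h1 := IsMin.pow_two (by omega : 0 < q) hd
  have h2 := hd.pos
  have h3 : 0 < q ^ (2 * d) - 1 := by
    have : q ^ 1 ≤ q ^ (2 * d) := Nat.pow_le_pow_right (by omega) (by omega)
    rw [pow_one] at this
    omega
  exact Nat.pos_of_dvd_of_pos (orderOf_dvd_of_pow_eq_one h1) h3

theorem Frm.exists_mem (h : Frm p q n N R) (hq : 2 ≤ q) (hp : p.Prime) {r : ℕ} (hr : r.Prime) (hr2 : r ≠ 2) (hrp : r ≠ p)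
    (hN : r ∣ N) : ∃ x ∈ R, r ∣ orderOf x := by
  by_contra hcon
  push Not at hcon
  obtain ⟨c, hc⟩ := h.kill
  have h1 := hc (2 * ∏ x ∈ R.toFinset, orderOf x) (even_two_mul _) (fun x hx => by
    apply orderOf_dvd_iff_pow_eq_one.1
    exact (Finset.dvd_prod_of_mem _ (Multiset.mem_toFinset.2 hx)).mul_left 2)
  rcases (Nat.Prime.dvd_mul hr).1 (hN.trans h1) with h2 | h2
  · rcases (Nat.Prime.dvd_mul hr).1 h2 with h3 | h3
    · exact hr2 ((Nat.prime_dvd_prime_iff_eq hr Nat.prime_two).1 h3)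
    · obtain ⟨x, hx, hrx⟩ := (Prime.dvd_finsetProd_iff hr.prime _).1 h3
      exact hcon x (Multiset.mem_toFinset.1 hx) hrx
  · exact hrp ((Nat.prime_dvd_prime_iff_eq hr hp).1 (hr.dvd_of_dvd_pow h2))

end

section

variable {K : Type*} [Field K] [DecidableEq K] {p q k N : ℕ} {R : Multiset K}

/-- the primes -/
theorem Frm.pr (h : Frm p q (2 ^ k) N R) (hp : p.Prime) (hq : Odd q) (hq3 : 3 ≤ q) {r : ℕ} (hr : r.Prime) (hN : r ∣ N) :
    r = p ∨ ∃ i, 1 ≤ i ∧ i ≤ 2 ^ k ∧ r ∣ q ^ (2 * i) - 1 := by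
  by_cases hrp : r = p
  · exact Or.inl hrp
  right
  by_cases hr2 : r = 2
  · refine ⟨1, le_rfl, Nat.one_le_two_pow, ?_⟩
    rw [hr2]
    exact even_iff_two_dvd.1 (Nat.Odd.sub_odd hq.pow odd_one)
  obtain ⟨x, hx, hrx⟩ := h.exists_mem (by omega) hp hr hr2 hrp hN
  obtain ⟨d, hd⟩ := exists_isMin h.frob h.inv hx
  have h1 := d_le h.frob h.inv hd hx
  have h2 := h.card
  exact ⟨d, hd.pos, by omega, hrx.trans (orderOf_dvd_of_pow_eq_one (IsMin.pow_two (by omega) hd))⟩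

theorem not_both (hk : 3 ≤ k) (hq : Odd q) {r : ℕ} (hr : r.Prime) (h1 : r ∣ mn q k) (h2 : r ∣ (q ^ 2 ^ k - 1) / 2) :
    False := by
  have h4 := half_mn (k := k) (by omega) hq
  have h5 : 0 < mn q k := by
    have := two_mn (k := k) (by omega) hq
    omega
  rw [h4] at h2
  have h6 := (Nat.dvd_sub_iff_right (by omega : mn q k - 1 ≤ mn q k) h1).2 h2
  rw [show mn q k - (mn q k - 1) = 1 by omega] at h6
  exact hr.one_lt.ne' (Nat.dvd_one.1 h6)

theorem ne_two_of_dvd_mn (hk : 3 ≤ k) (hq : Odd q) {r : ℕ} (hr : r ∣ mn q k) : r ≠ 2 := by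
  rintro rfl
  rw [Cfsg.Agent.H202.TP.mn_eq (by omega : 2 ≤ k)] at hr
  have h3 : Odd (q ^ 2 ^ (k - 2)) := hq.pow
  have := Cfsg.Agent.H202.T.mm_mod h3
  omega

/-- **isolation** -/
theorem Frm.iso (h : Frm p q (2 ^ k) N R) (hp : p.Prime) (hpq : p ∣ q) (hk : 3 ≤ k) (hq : Odd q) (hq3 : 3 ≤ q) {r : ℕ}
    (hr : r.Prime) (hrm : r ∣ mn q k) (hN : r ∣ N) : N ∣ mn q k := by
  have hr2 := ne_two_of_dvd_mn hk hq hrm
  have hrq : r ∣ q ^ 2 ^ k + 1 := by
    rw [← two_mn (by omega) hq]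
    exact hrm.mul_left 2
  have hrp : r ≠ p := by
    rintro rfl
    have h1 : r ∣ q ^ 2 ^ k := dvd_pow hpq (by positivity)
    exact hr.one_lt.ne' (Nat.dvd_one.1 ((Nat.dvd_add_right h1).1 hrq))
  obtain ⟨x, hx, hrx⟩ := h.exists_mem (by omega) hp hr hr2 hrp hN
  obtain ⟨d, hd⟩ := exists_isMin h.frob h.inv hx
  have h1 := d_le h.frob h.inv hd hx
  have h2 := h.card
  have h3 := dvd_of_isMin h.frob (by omega) hd hr hr2 hrq hrx
  have h4 := Nat.le_of_dvd hd.pos h3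
  obtain rfl : d = 2 ^ k := by omega
  rcases h.semi x hx hd with h5 | h5
  · exact (not_both hk hq hr hrm (hN.trans h5)).elim
  · exact h5

/-- the 2-parts of `q ^ d - 1` and `q ^ d + 1`, `d < 2 ^ k` -/
theorem two_part (hq : Odd q) (hq3 : 3 ≤ q) {d : ℕ} (hd : 0 < d) (hdk : d < 2 ^ k) {M : ℕ}
    (hM : M = q ^ d - 1 ∨ M = q ^ d + 1) : ∃ B, Odd B ∧ M ∣ (q ^ 2 ^ k - 1) / 2 * B := by
  obtain ⟨i, m, hm, rfl⟩ := Nat.exists_eq_two_pow_mul_odd hd.ne'
  have hik : i < k := by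
    by_contra hcon
    have h1 : 2 ^ k ≤ 2 ^ i := Nat.pow_le_pow_right (by norm_num) (by omega)
    have h2 : 1 ≤ m := hm.pos
    have := Nat.mul_le_mul_left (2 ^ i) h2
    omega
  -- `(Q ^ m ∓ 1) = (Q ∓ 1) B`
  set Q := q ^ 2 ^ i with hQ
  have hQo : Odd Q := hq.pow
  have hQ3 : 3 ≤ Q := hq3.trans (Nat.le_self_pow (by positivity) q)
  have hhalf : ∀ A : ℕ, 2 * A ∣ q ^ 2 ^ k - 1 → A ∣ (q ^ 2 ^ k - 1) / 2 := by
    intro A hA
    obtain ⟨c, hc⟩ := hA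
    refine ⟨c, ?_⟩
    rw [hc, mul_assoc]
    exact Nat.mul_div_cancel_left _ (by norm_num)
  have h2Q : Q ^ 2 - 1 ∣ q ^ 2 ^ k - 1 := by
    rw [hQ, ← pow_mul, ← pow_succ]
    exact sub_dvd_sub (pow_dvd_pow 2 (by omega))
  have hsq : Q ^ 2 - 1 = (Q + 1) * (Q - 1) := by simpa using Nat.sq_sub_sq Q 1
  have hev1 : 2 ∣ Q + 1 := even_iff_two_dvd.1 hQo.add_one
  have hev2 : 2 ∣ Q - 1 := even_iff_two_dvd.1 (Nat.Odd.sub_odd hQo odd_one)
  rcases hM with rfl | rfl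
  · obtain ⟨B, hB⟩ : Q - 1 ∣ Q ^ m - 1 := by simpa using Nat.sub_dvd_pow_sub_pow Q 1 m
    have hBo : Odd B := by
      -- `B` is a sum of `m` odd numbers
      have h1 : (Q - 1) * (∑ j ∈ Finset.range m, Q ^ j) = Q ^ m - 1 := by
        have := Nat.geomSum_eq (by omega : 2 ≤ Q) m
        rw [this]
        exact Nat.mul_div_cancel' (by simpa using Nat.sub_dvd_pow_sub_pow Q 1 m)
      have h2 : B = ∑ j ∈ Finset.range m, Q ^ j := by
        apply Nat.eq_of_mul_eq_mul_left (by omega : 0 < Q - 1)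
        rw [h1, ← hB]
      rw [h2, Finset.odd_sum_iff_odd_card_odd]
      rw [Finset.filter_true_of_mem (fun j _ => hQo.pow), Finset.card_range]
      exact hm
    refine ⟨B, hBo, ?_⟩
    rw [pow_mul, hB]
    apply Nat.mul_dvd_mul_right
    apply hhalf
    refine dvd_trans ?_ h2Q
    rw [hsq]
    exact Nat.mul_dvd_mul_right hev1 _
  · obtain ⟨B, hB⟩ : Q + 1 ∣ Q ^ m + 1 := by simpa using Odd.nat_add_dvd_pow_add_pow Q 1 hm
    have hBo : Odd B := by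
      -- `Q ^ m - 1 = (Q - 1) C`, `C` odd, and `Q ^ (2 m) - 1 = (Q ^ 2 - 1) D`, `D` odd, `D = B C`
      have h1 : ∀ X : ℕ, Odd X → 3 ≤ X → ∃ C, Odd C ∧ X ^ m - 1 = (X - 1) * C := by
        intro X hX hX3
        refine ⟨∑ j ∈ Finset.range m, X ^ j, ?_, ?_⟩
        · rw [Finset.odd_sum_iff_odd_card_odd]
          rw [Finset.filter_true_of_mem (fun j _ => hX.pow), Finset.card_range]
          exact hm
        · have := Nat.geomSum_eq (by omega : 2 ≤ X) m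
          rw [this]
          exact (Nat.mul_div_cancel' (by simpa using Nat.sub_dvd_pow_sub_pow X 1 m)).symm
      obtain ⟨C, hC, hC1⟩ := h1 Q hQo hQ3
      obtain ⟨D, hD, hD1⟩ := h1 (Q ^ 2) hQo.pow (hQ3.trans (Nat.le_self_pow (by norm_num) Q))
      have h3 : (Q ^ 2) ^ m - 1 = (Q ^ m + 1) * (Q ^ m - 1) := by
        rw [← pow_mul, mul_comm, pow_mul]
        simpa using Nat.sq_sub_sq (Q ^ m) 1
      rw [hD1, hB, hC1, hsq] at h3
      have h4 : D = B * C := by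
        apply Nat.eq_of_mul_eq_mul_left (by have : 0 < Q - 1 := by omega
                                            positivity : 0 < (Q + 1) * (Q - 1))
        rw [h3]; ring
      rw [h4] at hD
      exact (Nat.odd_mul.1 hD).1
    refine ⟨B, hBo, ?_⟩
    rw [pow_mul, hB]
    apply Nat.mul_dvd_mul_right
    apply hhalf
    refine dvd_trans ?_ h2Q
    rw [hsq, mul_comm]
    exact Nat.mul_dvd_mul_left _ hev2

/-- **the powers of 2** -/
theorem Frm.two (h : Frm p q (2 ^ k) N R) (hp : p.Prime) (hp2 : p ≠ 2) (hk : 3 ≤ k) (hq : Odd q) (hq3 : 3 ≤ q) {j : ℕ}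
    (hj : 2 ^ j ∣ N) : 2 ^ j ∣ mn q k - 1 := by
  rw [← half_mn (by omega) hq]
  by_cases hex : ∃ μ ∈ R, IsMin q μ (2 ^ k)
  · obtain ⟨μ, hμ, hd⟩ := hex
    rcases h.semi μ hμ hd with h1 | h1
    · exact hj.trans h1
    · have h2 : 2 ^ j ∣ mn q k := hj.trans h1
      rcases Nat.eq_zero_or_pos j with rfl | hj0
      · simp
      · exact absurd rfl (ne_two_of_dvd_mn hk hq ((dvd_pow_self 2 hj0.ne').trans h2))
  · push Not at hex
    have h1 : ∀ x ∈ R, ∃ B, Odd B ∧ x ^ ((q ^ 2 ^ k - 1) / 2 * B) = 1 := by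
      intro x hx
      obtain ⟨d, hd⟩ := exists_isMin h.frob h.inv hx
      have h2 := d_le h.frob h.inv hd hx
      have h3 := h.card
      have h4 : d ≠ 2 ^ k := by
        rintro rfl
        exact hex x hx hd
      rcases hd.pow (by omega) with h5 | h5
      · obtain ⟨B, hB, hB1⟩ := two_part (k := k) hq hq3 hd.pos (by omega) (Or.inl rfl)
        exact ⟨B, hB, pow_dvd h5 hB1⟩
      · obtain ⟨B, hB, hB1⟩ := two_part (k := k) hq hq3 hd.pos (by omega) (Or.inr rfl)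
        exact ⟨B, hB, pow_dvd h5 hB1⟩
    obtain ⟨B, hB, hB1⟩ : ∃ B, Odd B ∧ ∀ x ∈ R, x ^ ((q ^ 2 ^ k - 1) / 2 * B) = 1 := by
      choose! f hf1 hf2 using h1
      refine ⟨∏ x ∈ R.toFinset, f x, ?_, fun x hx => ?_⟩
      · apply Finset.prod_induction _ Odd (fun a b ha hb => ha.mul hb) odd_one
        intro x hx
        exact hf1 x (Multiset.mem_toFinset.1 hx)
      · exact pow_dvd (hf2 x hx) (Nat.mul_dvd_mul_left _ (Finset.dvd_prod_of_mem _ (Multiset.mem_toFinset.2 hx)))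
    obtain ⟨c, hc⟩ := h.kill
    have hA : Even ((q ^ 2 ^ k - 1) / 2) := by
      rw [half_mn (by omega) hq]
      have h3 : ¬ 2 ∣ mn q k := fun h => ne_two_of_dvd_mn (k := k) hk hq h rfl
      exact Nat.Odd.sub_odd (Nat.not_even_iff_odd.1 fun h => h3 (even_iff_two_dvd.1 h)) odd_one
    have h2 := hj.trans (hc _ (hA.mul_right B) hB1)
    have h3 : Nat.Coprime (2 ^ j) (B * p ^ c) := Nat.Coprime.pow_left j (Nat.coprime_two_left.2
      (hB.mul (hp.odd_of_ne_two hp2).pow))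
    rw [mul_assoc] at h2
    exact h3.dvd_of_dvd_mul_right h2

/-- **the torus** -/
theorem Frm.tor (h : Frm p q (2 ^ k) N R) (hp : p.Prime) (hpq : p ∣ q) (hk : 3 ≤ k) (hq : Odd q) (hq3 : 3 ≤ q)
    (hs : ∀ i, 1 ≤ i → i < k → ∃ s : ℕ, s.Prime ∧ s ≠ 2 ∧ s ∣ q ^ 2 ^ i + 1 ∧ s ∣ N) :
    ∃ j, N ∣ p ^ j * (q ^ 2 ^ k - 1) := by
  obtain ⟨c, hc⟩ := h.kill
  refine ⟨c, ?_⟩
  rw [mul_comm]
  apply hc _ (Nat.Odd.sub_odd hq.pow odd_one)
  have h1 := bud h.frob (by omega : 0 < q) k R (by omega) h.inv (by rw [pow_succ, mul_comm]; exact h.card) (by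
    intro i hi hik
    obtain ⟨s, hsp, hs2, hsd, hsN⟩ := hs i hi hik
    refine ⟨s, hsp, hs2, hsd, h.exists_mem (by omega) hp hsp hs2 ?_ hsN⟩
    rintro rfl
    have h1 : s ∣ q ^ 2 ^ i := dvd_pow hpq (by positivity)
    exact hsp.one_lt.ne' (Nat.dvd_one.1 ((Nat.dvd_add_right h1).1 hsd)))
  rwa [show max k 2 = k by omega] at h1

end

end Cfsg.Agent.H189.TP
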